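import Groth.Agent.Pi1.H384.DenseCoord
import Mathlib.AlgebraicGeometry.Morphisms.Etale
import Mathlib.AlgebraicGeometry.AffineSpace
import Mathlib.AlgebraicGeometry.PullbackCarrier

/-!
# Kummer charts of a finite modification, stable under base change
-/

set_option autoImplicit false
universe u

open CategoryTheory CategoryTheory.Limits AlgebraicGeometry

namespace Groth.Agent.Pi1.H385.NKum

open Groth.Agent.Pi1.H384.DenseCoord

/-- Étale coordinates are stable under base change. -/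
theorem etale_bc {T T' E E' : Scheme.{u}} {s : E ⟶ T} {s' : E' ⟶ T'} {h : E' ⟶ E} {t : T' ⟶ T}
    (sq : IsPullback h s' s t) (z : Γ(E, ⊤))
    (he : Etale (AffineSpace.homOfVector s (fun _ : PUnit.{u+1} => z))) :
    Etale (AffineSpace.homOfVector s' (fun _ : PUnit.{u+1} => h.appTop z)) := by
  have hcomm : h ≫ AffineSpace.homOfVector s (fun _ : PUnit.{u+1} => z) =
      AffineSpace.homOfVector s' (fun _ : PUnit.{u+1} => h.appTop z) ≫
        AffineSpace.map PUnit.{u+1} t := by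
    apply AffineSpace.hom_ext
    · rw [Category.assoc, Category.assoc, AffineSpace.homOfVector_over, AffineSpace.map_over,
        AffineSpace.homOfVector_over_assoc]
      exact sq.w
    · intro i
      rw [Scheme.Hom.comp_appTop, Scheme.Hom.comp_appTop, CommRingCat.comp_apply,
        CommRingCat.comp_apply, AffineSpace.homOfVector_appTop_coord,
        AffineSpace.map_appTop_coord, AffineSpace.homOfVector_appTop_coord]
  have sq2 : IsPullback h (AffineSpace.homOfVector s' (fun _ : PUnit.{u+1} => h.appTop z))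
      (AffineSpace.homOfVector s (fun _ : PUnit.{u+1} => z)) (AffineSpace.map PUnit.{u+1} t) := by
    refine IsPullback.of_bot ?_ hcomm (AffineSpace.isPullback_map (n := PUnit.{u+1}) t)
    rw [AffineSpace.homOfVector_over, AffineSpace.homOfVector_over]
    exact sq
  exact MorphismProperty.of_isPullback sq2 he

/-- A modification `π : X' ⟶ X` which is a Kummer cover near the complement of `U`. -/
structure NData {T X : Scheme.{u}} (p : X ⟶ T) (U : X.Opens) (N : ℕ) where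
  X' : Scheme.{u}
  π : X' ⟶ X
  W : X.Opens
  f : Γ(W, ⊤)
  E : Scheme.{u}
  j : E ⟶ X'
  q : E ⟶ W
  z : Γ(E, ⊤)
  sq : IsPullback j q π W.ι
  z_pow : z ^ N = q.appTop f
  etW : Etale (AffineSpace.homOfVector (W.ι ≫ p) (fun _ : PUnit.{u+1} => f))
  etE : Etale (AffineSpace.homOfVector (q ≫ W.ι ≫ p) (fun _ : PUnit.{u+1} => z))
  hU : ∀ x : X, x ∉ U ↔ ∃ w : (W : Scheme.{u}), W.ι w = x ∧ w ∉ W.toScheme.basicOpen f

namespace NData

variable {T X : Scheme.{u}} {p : X ⟶ T} {U : X.Opens} {N : ℕ} (D : NData p U N)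

theorem isOpenImmersion_j : IsOpenImmersion D.j := MorphismProperty.of_isPullback D.sq.flip inferInstance

theorem mem_basicOpen_iff (hN : N ≠ 0) (e : D.E) :
    e ∈ D.E.basicOpen D.z ↔ D.q e ∈ D.W.toScheme.basicOpen D.f := by
  rw [← mem_basicOpen_appTop, ← D.z_pow, Scheme.basicOpen_pow _ _ (Nat.pos_of_ne_zero hN)]

/-- The complement of the preimage of `U`. -/
theorem hU' (hN : N ≠ 0) (x : D.X') :
    x ∉ D.π ⁻¹ᵁ U ↔ ∃ e : D.E, D.j e = x ∧ e ∉ D.E.basicOpen D.z := by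
  change D.π x ∉ U ↔ _
  rw [D.hU]
  constructor
  · rintro ⟨w, hw, hw'⟩
    obtain ⟨e, he1, he2⟩ := Scheme.exists_preimage_of_isPullback D.sq x w hw.symm
    refine ⟨e, he1, fun h => hw' ?_⟩
    rw [mem_basicOpen_iff D hN] at h
    rwa [he2] at h
  · rintro ⟨e, rfl, he⟩
    refine ⟨D.q e, ?_, fun h => he ?_⟩
    · rw [← Scheme.Hom.comp_apply, ← D.sq.w, Scheme.Hom.comp_apply]
    · rwa [mem_basicOpen_iff D hN]

variable {T₂ X₂ : Scheme.{u}} {p₂ : X₂ ⟶ T₂} {x : X₂ ⟶ X} {g : T₂ ⟶ T} (sqx : IsPullback x p₂ p g)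

theorem hU_bc {X X₂ : Scheme.{u}} (x : X₂ ⟶ X) {U : X.Opens} (W : X.Opens) (f : Γ(W, ⊤))
    (hU : ∀ x : X, x ∉ U ↔ ∃ w : (W : Scheme.{u}), W.ι w = x ∧ w ∉ W.toScheme.basicOpen f) (y : X₂) :
    y ∉ x ⁻¹ᵁ U ↔ ∃ w : (x ⁻¹ᵁ W : X₂.Opens).toScheme, (x ⁻¹ᵁ W).ι w = y ∧
      w ∉ (x ⁻¹ᵁ W).toScheme.basicOpen ((x ∣_ W).appTop f) := by
  change x y ∉ U ↔ _
  rw [hU]
  constructor
  · rintro ⟨w, hw, hw'⟩
    have hx : y ∈ x ⁻¹ᵁ W := by
      change x y ∈ W
      rw [← hw]
      exact w.2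
    refine ⟨⟨y, hx⟩, rfl, fun h => hw' ?_⟩
    rw [mem_basicOpen_appTop] at h
    have h1 : (x ∣_ W) (⟨y, hx⟩ : (x ⁻¹ᵁ W : X₂.Opens)) = w := by
      apply W.ι.isOpenEmbedding.injective
      rw [← Scheme.Hom.comp_apply, morphismRestrict_ι, Scheme.Hom.comp_apply, hw]
      rfl
    rwa [h1] at h
  · rintro ⟨w, rfl, hw'⟩
    refine ⟨(x ∣_ W) w, ?_, fun h => hw' ?_⟩
    · rw [← Scheme.Hom.comp_apply, morphismRestrict_ι, Scheme.Hom.comp_apply]
    · rwa [mem_basicOpen_appTop]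

/-- Base change of the data. -/
noncomputable def baseChange : NData p₂ (x ⁻¹ᵁ U) N where
  X' := pullback D.π x
  π := pullback.snd D.π x
  W := x ⁻¹ᵁ D.W
  f := (x ∣_ D.W).appTop D.f
  E := pullback D.q (x ∣_ D.W)
  j := pullback.lift (pullback.fst _ _ ≫ D.j) (pullback.snd _ _ ≫ (x ⁻¹ᵁ D.W).ι) (by
    rw [Category.assoc, D.sq.w, Category.assoc, ← morphismRestrict_ι, pullback.condition_assoc])
  q := pullback.snd D.q (x ∣_ D.W)
  z := (pullback.fst D.q (x ∣_ D.W)).appTop D.z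
  sq := by
    have h1 : IsPullback (pullback.fst D.q (x ∣_ D.W) ≫ D.j) (pullback.snd D.q (x ∣_ D.W)) D.π
        ((x ∣_ D.W) ≫ D.W.ι) := (IsPullback.of_hasPullback D.q (x ∣_ D.W)).paste_horiz D.sq
    refine IsPullback.of_right (h₁₂ := pullback.fst D.π x) (h₂₂ := x) ?_ (pullback.lift_snd _ _ _)
      (IsPullback.of_hasPullback D.π x)
    rw [pullback.lift_fst, ← morphismRestrict_ι]
    exact h1
  z_pow := by
    rw [← map_pow, D.z_pow]
    have h1 : D.q.appTop ≫ (pullback.fst D.q (x ∣_ D.W)).appTop =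
        (x ∣_ D.W).appTop ≫ (pullback.snd D.q (x ∣_ D.W)).appTop := by
      rw [← Scheme.Hom.comp_appTop, ← Scheme.Hom.comp_appTop, pullback.condition]
    exact congr($h1 D.f)
  etW := etale_bc ((isPullback_morphismRestrict x D.W).paste_vert sqx) _ D.etW
  etE := etale_bc ((IsPullback.of_hasPullback D.q (x ∣_ D.W)).paste_vert
    ((isPullback_morphismRestrict x D.W).paste_vert sqx)) _ D.etE
  hU := hU_bc x D.W D.f D.hU

end NData

end Groth.Agent.Pi1.H385.NKum
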