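import Mathlib.AlgebraicGeometry.Limits
import Mathlib.Topology.Connected.Clopen

/-!
# A criterion for connectedness: morphisms to two disjoint copies of the base lift
-/

set_option autoImplicit false
universe u

open CategoryTheory CategoryTheory.Limits AlgebraicGeometry

namespace Groth.Agent.Pi1.H385.ConnLift

/-- If morphisms to two disjoint copies of the base lift to a connected scheme, the source is
connected. -/
theorem connectedSpace_of_lift {U₁ V₁ V₂ : Scheme.{u}} (v : V₂ ⟶ V₁) (h₂ : V₂ ⟶ U₁)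
    [ConnectedSpace V₁] [Nonempty V₂]
    (H : ∀ b : V₂ ⟶ ∐ (fun _ : ULift.{u} Bool => U₁), b ≫ Sigma.desc (fun _ => 𝟙 U₁) = h₂ →
      ∃ a : V₁ ⟶ ∐ (fun _ : ULift.{u} Bool => U₁), v ≫ a = b) : ConnectedSpace V₂ := by
  have hpre : PreconnectedSpace V₂ := by
    rw [preconnectedSpace_iff_clopen]
    intro S hS
    let S' : V₂.Opens := ⟨S, hS.isOpen⟩
    let S'' : V₂.Opens := ⟨Sᶜ, hS.compl.isOpen⟩
    have hc : IsCompl S'.ι.opensRange S''.ι.opensRange := by
      rw [Scheme.Opens.opensRange_ι, Scheme.Opens.opensRange_ι]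
      constructor
      · rw [disjoint_iff]
        ext x
        simp [S', S'']
      · rw [codisjoint_iff]
        ext x
        simp [S', S'']
    obtain ⟨hcol⟩ := nonempty_isColimit_binaryCofanMk_of_isCompl S'.ι S''.ι hc
    let ιt := Sigma.ι (fun _ : ULift.{u} Bool => U₁) ⟨true⟩
    let ιf := Sigma.ι (fun _ : ULift.{u} Bool => U₁) ⟨false⟩
    obtain ⟨b, hb1, hb2⟩ := BinaryCofan.IsColimit.desc' hcol (S'.ι ≫ h₂ ≫ ιt) (S''.ι ≫ h₂ ≫ ιf)
    have hb1' : S'.ι ≫ b = S'.ι ≫ h₂ ≫ ιt := hb1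
    have hb2' : S''.ι ≫ b = S''.ι ≫ h₂ ≫ ιf := hb2
    obtain ⟨a, ha⟩ := H b (by
      apply BinaryCofan.IsColimit.hom_ext hcol
      · change S'.ι ≫ b ≫ _ = S'.ι ≫ h₂
        rw [reassoc_of% hb1', Sigma.ι_desc, Category.comp_id]
      · change S''.ι ≫ b ≫ _ = S''.ι ≫ h₂
        rw [reassoc_of% hb2', Sigma.ι_desc, Category.comp_id])
    have hdisj : ∀ x, x ∈ Set.range ιt → x ∉ Set.range ιf := by
      rintro _ ⟨x, rfl⟩ ⟨y, hy⟩
      have h1 := (sigmaι_eq_iff (fun _ : ULift.{u} Bool => U₁) ⟨false⟩ ⟨true⟩ y x).1 hy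
      obtain ⟨h2, -⟩ := Sigma.mk.inj h1
      cases h2
    have hcov : ∀ x : (∐ (fun _ : ULift.{u} Bool => U₁) : Scheme.{u}), x ∈ Set.range ιt ∨
        x ∈ Set.range ιf := by
      intro x
      obtain ⟨⟨⟨i⟩, y⟩, hy⟩ := (sigmaMk (fun _ : ULift.{u} Bool => U₁)).surjective x
      rw [sigmaMk_mk] at hy
      cases i
      · exact Or.inr ⟨y, hy⟩
      · exact Or.inl ⟨y, hy⟩
    have hcl : IsClopen (Set.range ιt) := by
      refine ⟨?_, ιt.isOpenEmbedding.isOpen_range⟩
      have h1 : (Set.range ιt)ᶜ = Set.range ιf := by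
        ext x
        constructor
        · intro hx
          exact (hcov x).resolve_left hx
        · intro hx hx'
          exact hdisj x hx' hx
      rw [← isOpen_compl_iff, h1]
      exact ιf.isOpenEmbedding.isOpen_range
    have hSb : S = b ⁻¹' (Set.range ιt) := by
      ext x
      constructor
      · intro hx
        refine ⟨h₂ x, ?_⟩
        have h1 : (S'.ι ≫ b) ⟨x, hx⟩ = (S'.ι ≫ h₂ ≫ ιt) ⟨x, hx⟩ := by rw [hb1']
        exact h1.symm
      · intro hx
        by_contra hxS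
        refine hdisj _ hx ⟨h₂ x, ?_⟩
        have h1 : (S''.ι ≫ b) ⟨x, hxS⟩ = (S''.ι ≫ h₂ ≫ ιf) ⟨x, hxS⟩ := by rw [hb2']
        exact h1.symm
    have hSa : S = v ⁻¹' (a ⁻¹' (Set.range ιt)) := by
      rw [hSb, ← ha]
      rfl
    rcases isClopen_iff.1 (hcl.preimage a.continuous) with h | h
    · left
      rw [hSa, h, Set.preimage_empty]
    · right
      rw [hSa, h, Set.preimage_univ]
  exact { hpre with toNonempty := inferInstance }

end Groth.Agent.Pi1.H385.ConnLift
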