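import Groth.Agent.Pi1A.FEtGlue

/-!
# Fully faithful base change of finite etale covers, in terms of maps

`FF q`: base change of finite etale covers along `q` is fully faithful. `FF.existsUnique`: maps of
finite etale covers over maps of the bases extend uniquely.
-/

set_option autoImplicit false
universe u

open CategoryTheory CategoryTheory.Limits AlgebraicGeometry

namespace Groth.Agent.Pi1.H385.FF

/-- Base change of finite etale covers along `q` is fully faithful. -/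
def FF {S₂ S₁ : Scheme.{u}} (q : S₂ ⟶ S₁) : Prop :=
  (FEt.restrict q).Full ∧ (FEt.restrict q).Faithful

theorem FF.of_isEquivalence {S₂ S₁ : Scheme.{u}} (q : S₂ ⟶ S₁) [(FEt.restrict q).IsEquivalence] :
    FF q := ⟨inferInstance, inferInstance⟩

theorem FF.comp {S₃ S₂ S₁ : Scheme.{u}} {p : S₃ ⟶ S₂} {q : S₂ ⟶ S₁} (hp : FF p) (hq : FF q) :
    FF (p ≫ q) := by
  have := hp.1
  have := hp.2
  have := hq.1
  have := hq.2
  exact ⟨Functor.Full.of_iso (Pi1A.FEtGlue.restrictComp p q).symm,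
    Functor.Faithful.of_iso (Pi1A.FEtGlue.restrictComp p q).symm⟩

/-- The cover of a finite etale morphism. -/
noncomputable def mk {V S : Scheme.{u}} (h : V ⟶ S) (hh : FEt.prop h) : FEt.Cat S :=
  MorphismProperty.Over.mk ⊤ h hh

@[simp] lemma mk_left {V S : Scheme.{u}} (h : V ⟶ S) (hh : FEt.prop h) : (mk h hh).left = V := rfl

@[simp] lemma mk_hom {V S : Scheme.{u}} (h : V ⟶ S) (hh : FEt.prop h) : (mk h hh).hom = h := rfl

lemma prop_hom {S : Scheme.{u}} (V : FEt.Cat S) : FEt.prop V.hom := V.prop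

theorem FF.existsUnique {S₂ S₁ : Scheme.{u}} {q : S₂ ⟶ S₁} (hq : FF q) {V V₂ W R : Scheme.{u}}
    {v : V₂ ⟶ V} {h₂ : V₂ ⟶ S₂} {h : V ⟶ S₁} (hpb : IsPullback v h₂ h q) (hh : FEt.prop h)
    {w : W ⟶ R} (hw : FEt.prop w) (t : S₁ ⟶ R) (b : V₂ ⟶ W) (hb : b ≫ w = h₂ ≫ q ≫ t) :
    ∃! a : V ⟶ W, a ≫ w = h ≫ t ∧ v ≫ a = b := by
  have := hq.1
  have := hq.2
  have key : ∃ a : V ⟶ W, a ≫ w = h ≫ t ∧ pullback.fst h q ≫ a = hpb.isoPullback.inv ≫ b :=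
    Pi1A.FEtGlue.hom_exists q (mk h hh) t (mk w hw) (hpb.isoPullback.inv ≫ b) (by
      change (hpb.isoPullback.inv ≫ b) ≫ w = pullback.fst h q ≫ h ≫ t
      rw [Category.assoc, hb, hpb.isoPullback_inv_snd_assoc, pullback.condition_assoc])
  obtain ⟨a, ha1, ha2⟩ := key
  refine ⟨a, ⟨ha1, ?_⟩, ?_⟩
  · rw [← hpb.isoPullback_hom_fst, Category.assoc, ha2, Iso.hom_inv_id_assoc]
  · rintro a' ⟨h1, h2⟩
    have h3 : pullback.fst h q ≫ a' = pullback.fst h q ≫ a := by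
      rw [ha2, ← hpb.isoPullback_inv_fst, Category.assoc, h2]
    exact Pi1A.FEtGlue.hom_unique q (mk h hh) t (mk w hw) a' a h1 ha1 h3

/-- Extension of maps from `U₂'` to `U₁'` for covers which extend to `X₁'`. -/
theorem existsUnique_lift {X U U₂ : Scheme.{u}} {i : U ⟶ X} (hi : FF i) {y : U₂ ⟶ U}
    (hy : FF (y ≫ i)) {Vb V V₂ Wb W : Scheme.{u}} {Vbh : Vb ⟶ X} {Vh : V ⟶ U} {V₂h : V₂ ⟶ U₂}
    {v : V₂ ⟶ V} {vb : V ⟶ Vb} (h1 : IsPullback v V₂h Vh y) (h2 : IsPullback vb Vh Vbh i)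
    (hVb : FEt.prop Vbh) {wb : W ⟶ Wb} {Wh : W ⟶ U} {Wbh : Wb ⟶ X} (h3 : IsPullback wb Wh Wbh i)
    (hWb : FEt.prop Wbh) {t : U ⟶ U} {tb : X ⟶ X} (ht : t ≫ i = i ≫ tb)
    (b : V₂ ⟶ W) (hb : b ≫ Wh = V₂h ≫ y ≫ t) :
    ∃! a : V ⟶ W, a ≫ Wh = Vh ≫ t ∧ v ≫ a = b := by
  have h12 : IsPullback (v ≫ vb) V₂h Vbh (y ≫ i) := h1.paste_horiz h2
  obtain ⟨ab, ⟨hab1, hab2⟩, -⟩ := hy.existsUnique h12 hVb hWb tb (b ≫ wb) (by
    rw [Category.assoc, h3.w, reassoc_of% hb, ht, Category.assoc])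
  refine ⟨h3.lift (vb ≫ ab) (Vh ≫ t) ?_, ⟨h3.lift_snd _ _ _, ?_⟩, ?_⟩
  · rw [Category.assoc, hab1, Category.assoc, ht, h2.w_assoc]
  · apply h3.hom_ext
    · rw [Category.assoc, h3.lift_fst, ← Category.assoc, hab2]
    · rw [Category.assoc, h3.lift_snd, hb, h1.w_assoc]
  · rintro a' ⟨ha1, ha2⟩
    obtain ⟨a1, ⟨ha11, ha12⟩, -⟩ := hi.existsUnique h2 hVb hWb tb (a' ≫ wb) (by
      rw [Category.assoc, h3.w, reassoc_of% ha1, ht])
    have e : a1 = ab := by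
      refine (hy.existsUnique h12 hVb hWb tb (b ≫ wb) (by
        rw [Category.assoc, h3.w, reassoc_of% hb, ht, Category.assoc])).unique ⟨ha11, ?_⟩
        ⟨hab1, hab2⟩
      rw [Category.assoc, ha12, ← ha2, Category.assoc]
    apply h3.hom_ext
    · rw [h3.lift_fst, ← ha12, e]
    · rw [h3.lift_snd, ha1]

end Groth.Agent.Pi1.H385.FF
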