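import Groth.Agent.VarietyA.GeomConn
import Mathlib.FieldTheory.IsAlgClosed.Basic

/-!
# A connected scheme over an algebraically closed field is geometrically connected
-/

set_option autoImplicit false
universe u

open CategoryTheory CategoryTheory.Limits AlgebraicGeometry

namespace Groth.Agent.Pi1.H385.GeomConnAC

/-- A connected scheme over an algebraically closed field is geometrically connected. -/
theorem geometricallyConnected (k : Type u) [Field k] [IsAlgClosed k] {X : Scheme.{u}}
    (f : X ⟶ Spec (CommRingCat.of k)) [ConnectedSpace X] : GeometricallyConnected f := by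
  obtain ⟨x⟩ := (inferInstance : Nonempty X)
  obtain ⟨φ, hφ⟩ := Spec.map_surjective (X.fromSpecResidueField x ≫ f)
  let _ : Algebra k (X.residueField x) := φ.hom.toAlgebra
  refine VarietyA.GeomConn.geometricallyConnected_of_point k f x ?_ ?_
  · rw [← hφ]
    rfl
  · intro a ha
    have hint : IsIntegral k a := ha.isIntegral
    exact minpoly.mem_range_of_degree_eq_one k a
      (IsAlgClosed.degree_eq_one_of_irreducible k (minpoly.irreducible hint))

end Groth.Agent.Pi1.H385.GeomConnAC
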