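import Groth.Agent.Sga1.EtaleHom
import Mathlib.AlgebraicGeometry.Morphisms.Proper

/-!
# Maps to etale schemes are determined by geometric points and descend along universally
submersive maps
-/

set_option autoImplicit false
universe u

open CategoryTheory CategoryTheory.Limits AlgebraicGeometry SGA1

namespace Groth.Agent.Pi1.H385.GeomPt

/-- Every point of a scheme is the image of a geometric point. -/
theorem exists_geomPoint {T : Scheme.{u}} (t : T) :
    ∃ (K : Type u) (_ : Field K) (_ : IsAlgClosed K) (x : Spec (CommRingCat.of K) ⟶ T),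
      ∀ z, x z = t := by
  refine ⟨AlgebraicClosure (T.residueField t), inferInstance, inferInstance,
    Spec.map (CommRingCat.ofHom (algebraMap (T.residueField t) _)) ≫ T.fromSpecResidueField t,
    fun z => ?_⟩
  rw [Scheme.Hom.comp_apply]
  exact Scheme.fromSpecResidueField_apply t _

/-- Two points with the same image underly a common geometric point of the fibre product. -/
theorem exists_pair {X Y S : Scheme.{u}} (f : X ⟶ S) (g : Y ⟶ S) (x : X) (y : Y)
    (h : f x = g y) :
    ∃ (K : Type u) (_ : Field K) (_ : IsAlgClosed K) (a : Spec (CommRingCat.of K) ⟶ X)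
      (b : Spec (CommRingCat.of K) ⟶ Y), (∀ z, a z = x) ∧ (∀ z, b z = y) ∧ a ≫ f = b ≫ g := by
  obtain ⟨z, h1, h2⟩ := Scheme.Pullback.exists_preimage_pullback x y h
  obtain ⟨K, i1, i2, c, hc⟩ := exists_geomPoint z
  refine ⟨K, i1, i2, c ≫ pullback.fst f g, c ≫ pullback.snd f g, fun w => ?_, fun w => ?_, ?_⟩
  · rw [Scheme.Hom.comp_apply, hc, h1]
  · rw [Scheme.Hom.comp_apply, hc, h2]
  · rw [Category.assoc, Category.assoc, pullback.condition]

instance surjective_algebraicClosure (L : Type u) [Field L] :
    Surjective (Spec.map (CommRingCat.ofHom (algebraMap L (AlgebraicClosure L)))) := by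
  refine ⟨fun x => ?_⟩
  obtain ⟨z⟩ : Nonempty ↥(Spec (CommRingCat.of (AlgebraicClosure L))) := inferInstance
  exact ⟨z, Subsingleton.elim _ _⟩

/-- Morphisms to unramified schemes are determined by the geometric points. -/
theorem eq_of_geomPoints {Y S T : Scheme.{u}} (w : Y ⟶ S) [FormallyUnramified w]
    [LocallyOfFiniteType w] (a b : T ⟶ Y) (h : a ≫ w = b ≫ w)
    (hpt : ∀ (K : Type u) [Field K] [IsAlgClosed K] (x : Spec (CommRingCat.of K) ⟶ T),
      x ≫ a = x ≫ b) : a = b := by
  have h1 := Sga1.EtaleSection.isOpenImmersion_equalizer w a b h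
  have h2 : Surjective (equalizer.ι a b) := by
    refine ⟨fun t => ?_⟩
    obtain ⟨K, _, _, x, hx⟩ := exists_geomPoint t
    obtain ⟨z⟩ : Nonempty ↥(Spec (CommRingCat.of K)) := inferInstance
    refine ⟨equalizer.lift x (hpt K x) z, ?_⟩
    rw [← Scheme.Hom.comp_apply, equalizer.lift_ι, hx]
  have h3 : IsIso (equalizer.ι a b) :=
    (isIso_iff_isOpenImmersion_and_surjective _).2 ⟨h1, h2⟩
  have h4 := equalizer.condition a b
  rwa [cancel_epi] at h4

/-- Descent of morphisms to etale schemes along universally submersive morphisms, the descent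
condition being tested on geometric points. -/
theorem exists_hom {X' X S Y : Scheme.{u}} (g : X' ⟶ X) (hg : UnivSubmersive g)
    (m : X ⟶ S) (w : Y ⟶ S) [Etale w] (c : X' ⟶ Y) (hc : c ≫ w = g ≫ m)
    (hpt : ∀ (K : Type u) [Field K] [IsAlgClosed K] (x₀ x₁ : Spec (CommRingCat.of K) ⟶ X'),
      x₀ ≫ g = x₁ ≫ g → x₀ ≫ c = x₁ ≫ c) :
    ∃ c₀ : X ⟶ Y, c₀ ≫ w = m ∧ g ≫ c₀ = c := by
  refine Sga1.EtaleHom.exists_hom_of_compat g hg m w c hc fun L _ x₀ x₁ e => ?_
  refine Sga1.EtaleSection.eq_of_surjective w _ _ ?_
    (Spec.map (CommRingCat.ofHom (algebraMap L (AlgebraicClosure L)))) ?_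
  · rw [Category.assoc, Category.assoc, hc, reassoc_of% e]
  · rw [← Category.assoc, ← Category.assoc]
    exact hpt _ _ _ (by rw [Category.assoc, Category.assoc, e])

/-- Universally closed surjective morphisms are universally submersive. -/
theorem univSubmersive_of_universallyClosed {X Y : Scheme.{u}} (f : X ⟶ Y) [UniversallyClosed f]
    [Surjective f] : UnivSubmersive f := by
  intro X' Y' i₁ i₂ f' h
  have h1 : UniversallyClosed f' := MorphismProperty.of_isPullback h.flip inferInstance
  have h2 : Surjective f' := MorphismProperty.of_isPullback h.flip inferInstance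
  exact f'.isClosedMap.isQuotientMap f'.continuous f'.surjective

end Groth.Agent.Pi1.H385.GeomPt
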