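import Mathlib.RingTheory.Henselian
import Mathlib.RingTheory.RootsOfUnity.AlgebraicallyClosed
import Mathlib.FieldTheory.IsAlgClosed.Basic

/-!
# Roots of unity in strictly henselian local rings
-/

set_option autoImplicit false
universe u

open Polynomial IsLocalRing

namespace Groth.Agent.Pi1.H385.HensRoot

theorem exists_primitiveRoot (A : Type u) [CommRing A] [HenselianLocalRing A]
    [IsAlgClosed (ResidueField A)] (N : ℕ) (hN0 : N ≠ 0) (hN : IsUnit ((N : ℕ) : ResidueField A)) :
    ∃ ζ : A, IsPrimitiveRoot ζ N := by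
  have h1 : NeZero ((N : ℕ) : ResidueField A) := ⟨hN.ne_zero⟩
  obtain ⟨ζ₀, hζ₀⟩ := HasEnoughRootsOfUnity.exists_primitiveRoot (ResidueField A) N
  obtain ⟨a₀, ha₀⟩ := IsLocalRing.residue_surjective ζ₀
  obtain ⟨ζ, hζ1, hζ2⟩ := HenselianLocalRing.is_henselian (X ^ N - C 1 : A[X])
    (monic_X_pow_sub_C _ hN0) a₀ (by
      rw [← residue_eq_zero_iff, eval_sub, eval_pow, eval_X, eval_C, map_sub, map_pow, ha₀,
        hζ₀.pow_eq_one, map_one, sub_self]) (by
      rw [derivative_sub, derivative_X_pow, derivative_C, sub_zero, eval_mul, eval_pow, eval_X]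
      refine isUnit_of_map_unit (residue A) _ ?_
      rw [map_mul, map_pow, ha₀]
      simp only [map_natCast, eval_natCast]
      exact hN.mul ((hζ₀.isUnit hN0).pow _))
  refine ⟨ζ, ?_, fun l hl => ?_⟩
  · have h2 : ζ ^ N - 1 = 0 := by simpa [IsRoot.def] using hζ1
    exact sub_eq_zero.1 h2
  · apply hζ₀.dvd_of_pow_eq_one
    have h3 : residue A ζ = ζ₀ := by
      rw [← ha₀, ← sub_eq_zero, ← map_sub, residue_eq_zero_iff]
      exact hζ2
    rw [← h3, ← map_pow, hl, map_one]

end Groth.Agent.Pi1.H385.HensRoot
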