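import Groth.Agent.Pi1.H385.GeomPt
import Mathlib.AlgebraicGeometry.Morphisms.FlatDescent

/-!
# Isomorphisms of etale schemes descend along surjective morphisms
-/

set_option autoImplicit false
universe u

open CategoryTheory CategoryTheory.Limits AlgebraicGeometry

namespace Groth.Agent.Pi1.H385.IsoDesc

/-- A morphism of etale `S`-schemes which becomes an isomorphism after a surjective base change
is an isomorphism. -/
theorem isIso_of_pullback {P Q P' Q' : Scheme.{u}} (k : P ⟶ Q) [Etale k]
    {a : P' ⟶ P} {k' : P' ⟶ Q'} {b : Q' ⟶ Q} (sq : IsPullback a k' k b) [Surjective b]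
    [IsIso k'] : IsIso k := by
  have h1 : Surjective k := by
    have : Surjective (k' ≫ b) := inferInstance
    rw [← sq.w] at this
    exact Surjective.of_comp a k
  have h2 : UniversallyInjective k := by
    rw [UniversallyInjective.iff_diagonal]
    -- the diagonal of `k'` is the base change of the diagonal of `k`
    refine ⟨fun z => ?_⟩
    obtain ⟨K, _, _, x, hx⟩ := GeomPt.exists_geomPoint z
    let x₁ := x ≫ pullback.fst k k
    let x₂ := x ≫ pullback.snd k k
    have e12 : x₁ ≫ k = x₂ ≫ k := by
      simp only [x₁, x₂, Category.assoc, pullback.condition]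
    obtain ⟨t⟩ : Nonempty ↥(Spec (CommRingCat.of K)) := inferInstance
    obtain ⟨y, hy⟩ := b.surjective ((x₁ ≫ k) t)
    obtain ⟨L, _, _, c, d, hc, hd, hcd⟩ := GeomPt.exists_pair (x₁ ≫ k) b t y hy.symm
    -- the two points of `P'`
    have e1 : (c ≫ x₁) ≫ k = d ≫ b := by rw [Category.assoc, hcd]
    have e2 : (c ≫ x₂) ≫ k = d ≫ b := by rw [Category.assoc, ← e12, hcd]
    have e3 : sq.lift (c ≫ x₁) d e1 = sq.lift (c ≫ x₂) d e2 := by
      rw [← cancel_mono k', sq.lift_snd, sq.lift_snd]
    have e4 : c ≫ x₁ = c ≫ x₂ := by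
      rw [← sq.lift_fst (c ≫ x₁) d e1, e3, sq.lift_fst]
    obtain ⟨s⟩ : Nonempty ↥(Spec (CommRingCat.of L)) := inferInstance
    refine ⟨(c ≫ x₁) s, ?_⟩
    rw [← Scheme.Hom.comp_apply]
    have e5 : (c ≫ x₁) ≫ pullback.diagonal k = c ≫ x := by
      apply pullback.hom_ext
      · rw [Category.assoc, pullback.diagonal_fst, Category.comp_id, Category.assoc]
      · rw [Category.assoc, pullback.diagonal_snd, Category.comp_id, e4, Category.assoc]
    rw [e5, Scheme.Hom.comp_apply, hx]
  exact Sga1.EtaleSection.isIso_of_etale_of_universallyInjective k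

end Groth.Agent.Pi1.H385.IsoDesc
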