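import Mathlib.AlgebraicGeometry.Morphisms.Proper
import Mathlib.AlgebraicGeometry.Morphisms.ClosedImmersion
import Mathlib.AlgebraicGeometry.ResidueField

/-!
# The fixed locus of an automorphism acting by multiplication with a root of unity on the equation
of the boundary is proper
-/

set_option autoImplicit false
universe u

open CategoryTheory CategoryTheory.Limits AlgebraicGeometry

namespace Groth.Agent.Pi1.H385.KumFix

/-- An open immersion with closed range is a closed immersion. -/
theorem isClosedImmersion_of_isClosed_range {X Y : Scheme.{u}} (k : X ⟶ Y) [IsOpenImmersion k]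
    (h : IsClosed (Set.range k)) : IsClosedImmersion k where
  isClosedEmbedding := ⟨k.isOpenEmbedding.isEmbedding, h⟩
  stalkMap_surjective x := (ConcreteCategory.bijective_of_isIso (k.stalkMap x)).2

/-- The equalizer of two morphisms over `T` into a separated scheme is closed. -/
theorem isClosedImmersion_equalizer {X Y T : Scheme.{u}} (q : Y ⟶ T) [IsSeparated q] (a b : X ⟶ Y)
    (h : a ≫ q = b ≫ q) : IsClosedImmersion (equalizer.ι a b) := by
  have hp : IsPullback (equalizer.ι a b) (equalizer.ι a b ≫ a) (pullback.lift a b h)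
      (pullback.diagonal q) := by
    refine ⟨⟨?_⟩, ⟨PullbackCone.IsLimit.mk _ (fun s => equalizer.lift s.fst ?_) (fun s => ?_)
      (fun s => ?_) (fun s m h₁ h₂ => ?_)⟩⟩
    · apply pullback.hom_ext
      · rw [Category.assoc, Category.assoc, pullback.diagonal_fst, Category.comp_id]
        erw [pullback.lift_fst]
      · rw [Category.assoc, Category.assoc, pullback.diagonal_snd, Category.comp_id]
        erw [pullback.lift_snd]
        rw [equalizer.condition]
    · have h1 := s.condition =≫ pullback.fst _ _
      have h2 := s.condition =≫ pullback.snd _ _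
      simp only [Category.assoc, pullback.lift_fst, pullback.lift_snd, pullback.diagonal_fst,
        pullback.diagonal_snd, Category.comp_id] at h1 h2
      rw [h1, h2]
    · exact equalizer.lift_ι _ _
    · have h1 := s.condition =≫ pullback.fst _ _
      simp only [Category.assoc, pullback.lift_fst, pullback.diagonal_fst, Category.comp_id] at h1
      rw [equalizer.lift_ι_assoc, h1]
    · apply equalizer.hom_ext
      rw [h₁, equalizer.lift_ι]
  exact MorphismProperty.of_isPullback hp.flip inferInstance

variable {T X' E U' : Scheme.{u}} (i : U' ⟶ X') [IsOpenImmersion i] (j : E ⟶ X') [IsOpenImmersion j]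
  (q : X' ⟶ T) (σ : X' ⟶ X') (σE : E ⟶ E) (hj : j ≫ σ = σE ≫ j)
  (z c : Γ(E, ⊤)) (hz : σE.appTop z = c * z) (hc : IsUnit (c - 1))

include hj hz hc in
/-- A fixed point on `E` is a zero of `z`. -/
theorem notMem_basicOpen (y : (equalizer σ (𝟙 X') : Scheme.{u})) (e : E)
    (he : j e = equalizer.ι σ (𝟙 X') y) : e ∉ E.basicOpen z := by
  let F : Scheme.{u} := equalizer σ (𝟙 X')
  let a : Spec (F.residueField y) ⟶ X' := F.fromSpecResidueField y ≫ equalizer.ι σ (𝟙 X')
  have ha : a ≫ σ = a := by
    simp only [a, Category.assoc]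
    rw [equalizer.condition, Category.comp_id]
  have hay : ∀ s, a s = j e := by
    intro s
    rw [he]
    change equalizer.ι σ (𝟙 X') (F.fromSpecResidueField y s) = _
    have h1 : F.fromSpecResidueField y s = y := by
      have h2 := F.range_fromSpecResidueField y
      have h3 : F.fromSpecResidueField y s ∈ Set.range (F.fromSpecResidueField y) := ⟨s, rfl⟩
      rw [h2] at h3
      exact h3
    rw [h1]
  have hr : Set.range a ⊆ Set.range j := by
    rintro _ ⟨s, rfl⟩
    exact ⟨e, (hay s).symm⟩
  let b : Spec (F.residueField y) ⟶ E := IsOpenImmersion.lift j a hr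
  have hb : b ≫ j = a := IsOpenImmersion.lift_fac _ _ _
  have hbσ : b ≫ σE = b := by
    rw [← cancel_mono j, Category.assoc, ← hj, reassoc_of% hb, ha, hb]
  have hbz : b.appTop z = 0 := by
    have h1 : b.appTop (σE.appTop z) = b.appTop z := by
      have h2 : σE.appTop ≫ b.appTop = b.appTop := by rw [← Scheme.Hom.comp_appTop, hbσ]
      exact congr($h2 z)
    rw [hz, map_mul] at h1
    have h3 : b.appTop (c - 1) * b.appTop z = 0 := by
      rw [map_sub, map_one, sub_mul, h1, one_mul, sub_self]
    exact ((hc.map b.appTop.hom).mul_right_eq_zero).1 h3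
  intro hmem
  obtain ⟨s⟩ : Nonempty (Spec (F.residueField y)) := inferInstance
  have hbs : b s = e := by
    apply j.isOpenEmbedding.injective
    rw [← Scheme.Hom.comp_apply, hb, hay]
  have h4 : s ∈ b ⁻¹ᵁ E.basicOpen z := by
    change b s ∈ E.basicOpen z
    rw [hbs]
    exact hmem
  rw [Scheme.preimage_basicOpen_top, hbz, Scheme.basicOpen_zero] at h4
  exact h4

include hj hz hc in
/-- **The fixed locus on the complement of the zeros of `z` is proper.** -/
theorem isProper_fixed [IsProper q] (hσ : σ ≫ q = q) (σU : U' ⟶ U') (hU : σU ≫ i = i ≫ σ)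
    (hU' : ∀ x : X', x ∉ Set.range i ↔ ∃ e : E, j e = x ∧ e ∉ E.basicOpen z) :
    IsProper (equalizer.ι σU (𝟙 U') ≫ i ≫ q) := by
  have hcl : IsClosedImmersion (equalizer.ι σ (𝟙 X')) :=
    isClosedImmersion_equalizer q σ (𝟙 X') (by rw [hσ, Category.id_comp])
  let k : equalizer σU (𝟙 U') ⟶ equalizer σ (𝟙 X') :=
    equalizer.lift (equalizer.ι σU (𝟙 U') ≫ i) (by
      rw [Category.assoc, ← hU, ← Category.assoc, equalizer.condition, Category.comp_id,
        Category.comp_id])
  have hk : k ≫ equalizer.ι σ (𝟙 X') = equalizer.ι σU (𝟙 U') ≫ i := equalizer.lift_ι _ _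
  have hp : IsPullback k (equalizer.ι σU (𝟙 U')) (equalizer.ι σ (𝟙 X')) i := by
    refine ⟨⟨hk⟩, ⟨PullbackCone.IsLimit.mk _ (fun s => equalizer.lift s.snd ?_) (fun s => ?_)
      (fun s => ?_) (fun s m h₁ h₂ => ?_)⟩⟩
    · rw [Category.comp_id, ← cancel_mono i, Category.assoc, hU, ← Category.assoc, ← s.condition,
        Category.assoc, equalizer.condition, Category.comp_id]
    · rw [← cancel_mono (equalizer.ι σ (𝟙 X')), Category.assoc, hk, equalizer.lift_ι_assoc,
        s.condition]
    · exact equalizer.lift_ι _ _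
    · apply equalizer.hom_ext
      rw [h₂, equalizer.lift_ι]
  have hko : IsOpenImmersion k := MorphismProperty.of_isPullback hp.flip inferInstance
  have hrange : Set.range k = equalizer.ι σ (𝟙 X') ⁻¹' (Set.range i) := by
    rw [← Scheme.Pullback.range_fst, ← hp.isoPullback_hom_fst]
    ext y
    constructor
    · rintro ⟨x, rfl⟩
      exact ⟨hp.isoPullback.hom x, (Scheme.Hom.comp_apply _ _ _).symm⟩
    · rintro ⟨x, rfl⟩
      refine ⟨hp.isoPullback.inv x, ?_⟩
      rw [← Scheme.Hom.comp_apply, Iso.inv_hom_id_assoc]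
  have hkc : IsClosed (Set.range k) := by
    rw [← isOpen_compl_iff, hrange, ← Set.preimage_compl]
    have h1 : equalizer.ι σ (𝟙 X') ⁻¹' (Set.range i)ᶜ = equalizer.ι σ (𝟙 X') ⁻¹' (Set.range j) := by
      ext y
      constructor
      · intro hy
        obtain ⟨e, he, -⟩ := (hU' _).1 hy
        exact ⟨e, he⟩
      · rintro ⟨e, he⟩
        exact (hU' _).2 ⟨e, he, notMem_basicOpen j σ σE hj z c hz hc y e he⟩
    rw [h1]
    exact j.isOpenEmbedding.isOpen_range.preimage (equalizer.ι σ (𝟙 X')).continuous
  have hkcl := isClosedImmersion_of_isClosed_range k hkc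
  have h2 : equalizer.ι σU (𝟙 U') ≫ i ≫ q = k ≫ equalizer.ι σ (𝟙 X') ≫ q := by
    rw [reassoc_of% hk]
  rw [h2]
  infer_instance

end Groth.Agent.Pi1.H385.KumFix
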