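import Mathlib.AlgebraicGeometry.Normalization
import Mathlib.AlgebraicGeometry.ZariskisMainTheorem

/-!
# The relative normalization of `X` in an integral scheme over an open subscheme of `X`
-/

set_option autoImplicit false
universe u

open CategoryTheory CategoryTheory.Limits AlgebraicGeometry

namespace Groth.Agent.Pi1.H385.NormOpen

section

variable {X W E : Scheme.{u}} (ι : W ⟶ X) [IsOpenImmersion ι] [QuasiCompact ι] (q : E ⟶ W)
  [IsIntegralHom q]

/-- Over the open subscheme the normalization is the given integral scheme. -/
theorem isPullback : IsPullback (q ≫ ι).toNormalization q (q ≫ ι).fromNormalization ι := by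
  let e := q ≫ ι
  -- the base change of `e` to `W` is `q`
  let s : E ⟶ pullback e ι := pullback.lift (𝟙 E) q (Category.id_comp _)
  have hs1 : s ≫ pullback.fst e ι = 𝟙 E := pullback.lift_fst _ _ _
  have hs2 : s ≫ pullback.snd e ι = q := pullback.lift_snd _ _ _
  have hs3 : pullback.fst e ι ≫ s = 𝟙 _ := by
    apply pullback.hom_ext
    · rw [Category.assoc, hs1, Category.comp_id, Category.id_comp]
    · rw [Category.assoc, hs2, Category.id_comp, ← cancel_mono ι, Category.assoc]
      exact pullback.condition
  have hsiso : IsIso s := ⟨pullback.fst e ι, hs1, hs3⟩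
  have hint : IsIntegralHom (pullback.snd e ι) := by
    have : pullback.snd e ι = pullback.fst e ι ≫ q := by
      rw [← hs2, reassoc_of% hs3]
    rw [this]
    have : IsIso (pullback.fst e ι) := ⟨s, hs3, hs1⟩
    infer_instance
  -- the comparison isomorphism
  let θ : E ⟶ pullback e.fromNormalization ι :=
    s ≫ (pullback.snd e ι).toNormalization ≫ e.normalizationPullback ι
  have hθ : IsIso θ := inferInstance
  have hθ1 : θ ≫ pullback.fst _ _ = e.toNormalization := by
    simp only [θ, Category.assoc, Scheme.Hom.toNormalization_normalizationPullback_fst]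
    rw [reassoc_of% hs1]
  have hθ2 : θ ≫ pullback.snd _ _ = q := by
    simp only [θ, Category.assoc, Scheme.Hom.normalizationPullback_snd,
      Scheme.Hom.toNormalization_fromNormalization]
    rw [hs2]
  exact IsPullback.of_iso (IsPullback.of_hasPullback e.fromNormalization ι) (asIso θ).symm
    (Iso.refl _) (Iso.refl _) (Iso.refl _) (by simp [hθ1, e]) (by simp [hθ2]) (by simp [e])
    (by simp)

instance : IsOpenImmersion (q ≫ ι).toNormalization :=
  MorphismProperty.of_isPullback (isPullback ι q).flip inferInstance

end

section Act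

variable {E X : Scheme.{u}} (e : E ⟶ X) [QuasiCompact e] [QuasiSeparated e]

/-- The endomorphism of the normalization induced by an endomorphism of the source over the
target. -/
noncomputable def act (σ : E ⟶ E) (hσ : σ ≫ e = e) : e.normalization ⟶ e.normalization :=
  e.normalizationDesc (σ ≫ e.toNormalization) e.fromNormalization (by
    rw [Category.assoc, Scheme.Hom.toNormalization_fromNormalization, hσ])

@[reassoc]
lemma toNormalization_act (σ : E ⟶ E) (hσ : σ ≫ e = e) :
    e.toNormalization ≫ act e σ hσ = σ ≫ e.toNormalization :=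
  e.toNormalization_normalizationDesc _ _ _

@[reassoc]
lemma act_fromNormalization (σ : E ⟶ E) (hσ : σ ≫ e = e) :
    act e σ hσ ≫ e.fromNormalization = e.fromNormalization :=
  e.normalizationDesc_comp _ _ _

lemma act_comp (σ τ : E ⟶ E) (hσ : σ ≫ e = e) (hτ : τ ≫ e = e) (hστ : (σ ≫ τ) ≫ e = e) :
    act e (σ ≫ τ) hστ = act e σ hσ ≫ act e τ hτ := by
  apply Scheme.Hom.normalization.hom_ext e _ _ e.fromNormalization
  · rw [toNormalization_act, toNormalization_act_assoc, toNormalization_act, Category.assoc]
  · rw [act_fromNormalization]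
  · rw [Category.assoc, act_fromNormalization, act_fromNormalization]

lemma act_id (h : 𝟙 E ≫ e = e) : act e (𝟙 E) h = 𝟙 _ := by
  apply Scheme.Hom.normalization.hom_ext e _ _ e.fromNormalization
  · rw [toNormalization_act, Category.comp_id, Category.id_comp]
  · rw [act_fromNormalization]
  · rw [Category.id_comp]

lemma act_congr {σ τ : E ⟶ E} (h : σ = τ) (hσ : σ ≫ e = e) (hτ : τ ≫ e = e) :
    act e σ hσ = act e τ hτ := by
  subst h
  rfl

end Act

end Groth.Agent.Pi1.H385.NormOpen
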