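import Groth.Agent.Pi1.H385.KumSch
import Groth.Agent.Pi1.H385.NormOpen
import Groth.Agent.Sga1.QuotBasic
import Groth.Agent.Sga1.Transit
import Groth.Agent.Ega3B.NormalBirational
import Groth.Agent.CurvesA.NormFinite

/-!
# The normalization of a normal scheme in a Kummer cover of an open subscheme is a quotient map
-/

set_option autoImplicit false
universe u

open CategoryTheory CategoryTheory.Limits AlgebraicGeometry

namespace Groth.Agent.Pi1.H385.KumNorm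

open KumSch Groth.Agent.Sga1.QuotBasic

/-- The group homomorphism attached to a family of endomorphisms. -/
noncomputable def autOf {Z : Scheme.{u}} {Γ : Type} [Group Γ] (r : Γ → (Z ⟶ Z)) (r_one : r 1 = 𝟙 _)
    (r_mul : ∀ γ δ, r (γ * δ) = r γ ≫ r δ) : ULift.{u} Γ →* Aut Z where
  toFun g := ⟨r g.down⁻¹, r g.down, by rw [← r_mul, inv_mul_cancel, r_one],
    by rw [← r_mul, mul_inv_cancel, r_one]⟩
  map_one' := by
    ext1
    change r (1 : Γ)⁻¹ = 𝟙 _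
    rw [inv_one, r_one]
  map_mul' g h := by
    ext1
    change r (g.down * h.down)⁻¹ = r h.down⁻¹ ≫ r g.down⁻¹
    rw [mul_inv_rev, r_mul]

theorem trans_of_isQuot {Z Y : Scheme.{u}} {q : Z ⟶ Y} {Γ : Type} [Group Γ] [Finite Γ] (r : Γ → (Z ⟶ Z))
    (r_one : r 1 = 𝟙 _) (r_mul : ∀ γ δ, r (γ * δ) = r γ ≫ r δ)
    (h : SGA1.IsQuot (autOf r r_one r_mul) q) (K : Type u) [Field K]
    (a b : Spec (CommRingCat.of K) ⟶ Z) (hab : a ≫ q = b ≫ q) : ∃ γ, a ≫ r γ = b := by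
  obtain ⟨g, hg⟩ := Groth.Agent.Sga1.Transit.exists_comp_eq h a b hab
  refine ⟨g.down, ?_⟩
  rw [hg, Category.assoc]
  change b ≫ r g.down⁻¹ ≫ r g.down = b
  rw [← r_mul, inv_mul_cancel, r_one, Category.comp_id]

section

variable {T W : Scheme.{u}} {s : W ⟶ T} {f : Γ(W, ⊤)} {N : ℕ} {Γ : Type} [Group Γ] [Finite Γ]
  {u : Γ →* Γ(T, ⊤)ˣ} (D : KumCov s f N u)

/-- The Kummer cover is a quotient map. -/
theorem isQuot_q [IsAffine W] : SGA1.IsQuot (autOf D.r D.r_one D.r_mul) D.q := by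
  have := D.finite
  have hinv : ∀ g : ULift.{u} Γ, ((autOf D.r D.r_one D.r_mul) g).hom ≫ D.q = D.q := fun g => D.r_q _
  refine isQuot_of_affine_cover hinv fun y => ⟨⊤, trivial, isAffineOpen_top W, ⟨D.inj, fun b hb => ?_⟩⟩
  refine D.inv b fun γ => ?_
  have h1 := hb ⟨γ⁻¹⟩
  have h2 : (D.r (γ⁻¹)⁻¹).appTop b = b := by
    have h3 := (D.r (γ⁻¹)⁻¹).appLE_eq_app (U := ⊤)
    exact (congr($h3 b)).symm.trans h1
  rwa [inv_inv] at h2

end

section Norm

variable {T X : Scheme.{u}} {p : X ⟶ T} {W : X.Opens} {f : Γ(W, ⊤)} {N : ℕ} {Γ : Type} [Group Γ]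
  {u : Γ →* Γ(T, ⊤)ˣ} (D : KumCov (W.ι ≫ p) f N u) [QuasiCompact W.ι]

/-- The morphism to `X`. -/
abbrev toX : D.E ⟶ X := D.q ≫ W.ι

instance : IsFinite D.q := D.finite

instance : QuasiCompact (toX D) := inferInstance
instance : QuasiSeparated (toX D) := inferInstance

/-- The action on the normalization. -/
noncomputable def r' (γ : Γ) : (toX D).normalization ⟶ (toX D).normalization :=
  NormOpen.act (toX D) (D.r γ) (by rw [← Category.assoc, D.r_q])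

lemma r'_one : r' D 1 = 𝟙 _ := by
  refine (NormOpen.act_congr (toX D) D.r_one _ (Category.id_comp _)).trans ?_
  exact NormOpen.act_id (toX D) _

lemma r'_mul (γ δ : Γ) : r' D (γ * δ) = r' D γ ≫ r' D δ := by
  refine (NormOpen.act_congr (toX D) (D.r_mul γ δ) _
    (by rw [← Category.assoc, Category.assoc (D.r γ), D.r_q, D.r_q])).trans ?_
  exact NormOpen.act_comp (toX D) _ _ _ _ _

lemma r'_π (γ : Γ) : r' D γ ≫ (toX D).fromNormalization = (toX D).fromNormalization :=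
  NormOpen.act_fromNormalization _ _ _

lemma j_r' (γ : Γ) : (toX D).toNormalization ≫ r' D γ = D.r γ ≫ (toX D).toNormalization :=
  NormOpen.toNormalization_act _ _ _

/-- The group homomorphism of the action on the normalization. -/
noncomputable abbrev ρ' : ULift.{u} Γ →* Aut (toX D).normalization :=
  autOf (r' D) (r'_one D) (r'_mul D)

lemma inv' (g : ULift.{u} Γ) : (ρ' D g).hom ≫ (toX D).fromNormalization = (toX D).fromNormalization :=
  r'_π D _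

/-- The comparison of sections. -/
lemma injective_appLE (V : X.Opens) (hV : IsAffineOpen V)
    (e : D.q ⁻¹ᵁ W.ι ⁻¹ᵁ V ≤ (toX D).toNormalization ⁻¹ᵁ (toX D).fromNormalization ⁻¹ᵁ V) :
    Function.Injective ((toX D).toNormalization.appLE ((toX D).fromNormalization ⁻¹ᵁ V)
      (D.q ⁻¹ᵁ W.ι ⁻¹ᵁ V) e) := by
  have h1 := Groth.Agent.CurvesA.NormFinite.isIntegrallyClosedIn_toNormalization (f := toX D) V hV
  have h2 := (@isIntegrallyClosedIn_iff _ _ _ _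
    ((toX D).toNormalization.app ((toX D).fromNormalization ⁻¹ᵁ V)).hom.toAlgebra).1 h1
  have h3 : Function.Injective ((toX D).toNormalization.app ((toX D).fromNormalization ⁻¹ᵁ V)) := h2.1
  have h4 : D.q ⁻¹ᵁ W.ι ⁻¹ᵁ V = (toX D).toNormalization ⁻¹ᵁ (toX D).fromNormalization ⁻¹ᵁ V := by
    rw [← Scheme.Hom.comp_preimage, ← Scheme.Hom.comp_preimage,
      Scheme.Hom.toNormalization_fromNormalization]
  have h5 : ∀ (V' : D.E.Opens) (_ : V' = (toX D).toNormalization ⁻¹ᵁ (toX D).fromNormalization ⁻¹ᵁ V)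
      (e' : V' ≤ (toX D).toNormalization ⁻¹ᵁ (toX D).fromNormalization ⁻¹ᵁ V),
      Function.Injective ((toX D).toNormalization.appLE ((toX D).fromNormalization ⁻¹ᵁ V) V' e') := by
    rintro V' rfl e'
    rw [Scheme.Hom.appLE_eq_app]
    exact h3
  exact h5 _ h4 e

variable [IsIntegral X] [Finite Γ]

/-- The normalization is a quotient map onto the normal scheme `X`. -/
theorem isQuot_π (hX : ∀ x : X, IsIntegrallyClosed (X.presheaf.stalk x)) (hW : IsAffineOpen W)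
    [Nonempty W] : SGA1.IsQuot (ρ' D) (toX D).fromNormalization := by
  have hWaff : IsAffine (W : Scheme.{u}) := hW
  have hWint : IsIntegral (W : Scheme.{u}) := inferInstance
  have hqE := isQuot_q D
  refine isQuot_of_affine_cover (inv' D) fun y => ?_
  obtain ⟨_, ⟨V, hV, rfl⟩, hyV, -⟩ := X.isBasis_affineOpens.exists_subset_of_mem_open
    (Set.mem_univ y) isOpen_univ
  refine ⟨V, hyV, hV, ?_⟩
  have hVne : Nonempty V := ⟨⟨y, hyV⟩⟩
  let π := (toX D).fromNormalization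
  let j := (toX D).toNormalization
  have hjπ : j ≫ π = D.q ≫ W.ι := (toX D).toNormalization_fromNormalization
  have e : D.q ⁻¹ᵁ W.ι ⁻¹ᵁ V ≤ j ⁻¹ᵁ π ⁻¹ᵁ V := by
    rw [← Scheme.Hom.comp_preimage, ← Scheme.Hom.comp_preimage, hjπ]
  have hjinj := injective_appLE D V hV e
  have hqinj := hqE.injective (W.ι ⁻¹ᵁ V)
  have hcomp : π.app V ≫ j.appLE (π ⁻¹ᵁ V) (D.q ⁻¹ᵁ W.ι ⁻¹ᵁ V) e = W.ι.app V ≫ D.q.app (W.ι ⁻¹ᵁ V) := by
    rw [Scheme.Hom.app_eq_appLE, Scheme.Hom.appLE_comp_appLE, Scheme.Hom.app_eq_appLE,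
      Scheme.Hom.app_eq_appLE, Scheme.Hom.appLE_comp_appLE]
    exact appLE_congr_hom hjπ _ _ _
  refine ⟨?_, fun b hb => ?_⟩
  · intro a a' haa
    have h1 := congrArg (j.appLE (π ⁻¹ᵁ V) (D.q ⁻¹ᵁ W.ι ⁻¹ᵁ V) e) haa
    have h2 : D.q.app (W.ι ⁻¹ᵁ V) (W.ι.app V a) = D.q.app (W.ι ⁻¹ᵁ V) (W.ι.app V a') := by
      have h3 := congr($hcomp a)
      have h4 := congr($hcomp a')
      exact h3.symm.trans (h1.trans h4)
    have h5 := hqinj h2
    have hne : Nonempty (W.ι ''ᵁ W.ι ⁻¹ᵁ V : X.Opens) := by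
      obtain ⟨w, hw⟩ := ‹Nonempty W›
      obtain ⟨x, hx⟩ := (nonempty_preirreducible_inter W.2 V.2 ⟨w, hw⟩ ⟨y, hyV⟩ :
        ((W : Set X) ∩ V).Nonempty)
      exact ⟨⟨x, ⟨x, hx.1⟩, hx.2, rfl⟩⟩
    have h6 : Function.Injective (X.presheaf.map
        (homOfLE (x := W.ι ''ᵁ W.ι ⁻¹ᵁ V) (y := V) (Set.image_preimage_subset _ _)).op) :=
      map_injective_of_isIntegral X _
    exact h6 h5
  · -- the section on the Kummer cover
    let t := (j.appLE (π ⁻¹ᵁ V) (D.q ⁻¹ᵁ W.ι ⁻¹ᵁ V) e) b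
    have ht : ∀ g, ((autOf D.r D.r_one D.r_mul g).hom.appLE _ _
        (SGA1.preimage_le_of_inv _ _ hqE.inv g (W.ι ⁻¹ᵁ V))).hom t = t := by
      intro g
      have h1 : j.appLE (π ⁻¹ᵁ V) (D.q ⁻¹ᵁ W.ι ⁻¹ᵁ V) e ≫
          (autOf D.r D.r_one D.r_mul g).hom.appLE _ _
            (SGA1.preimage_le_of_inv _ _ hqE.inv g (W.ι ⁻¹ᵁ V)) =
          (ρ' D g).hom.appLE (π ⁻¹ᵁ V) (π ⁻¹ᵁ V) (SGA1.preimage_le_of_inv _ _ (inv' D) g V) ≫
            j.appLE (π ⁻¹ᵁ V) (D.q ⁻¹ᵁ W.ι ⁻¹ᵁ V) e := by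
        rw [Scheme.Hom.appLE_comp_appLE, Scheme.Hom.appLE_comp_appLE]
        exact appLE_congr_hom (j_r' D _).symm _ _ _
      refine (congr($h1 b)).trans ?_
      exact congrArg (j.appLE (π ⁻¹ᵁ V) (D.q ⁻¹ᵁ W.ι ⁻¹ᵁ V) e) (hb g)
    obtain ⟨c, hc⟩ := (hqE.range_iff _ t).2 ht
    have hint : (π.app V).hom.IsIntegralElem b := π.isIntegral_app V hV b
    have hcint : (W.ι.app V).hom.IsIntegralElem c := by
      obtain ⟨P, hP, hPb⟩ := hint
      refine ⟨P, hP, hqinj ?_⟩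
      rw [map_zero, Polynomial.hom_eval₂]
      have h1 := congrArg (j.appLE (π ⁻¹ᵁ V) (D.q ⁻¹ᵁ W.ι ⁻¹ᵁ V) e).hom hPb
      rw [map_zero, Polynomial.hom_eval₂] at h1
      rw [← h1, hc]
      congr 1
      exact congrArg CommRingCat.Hom.hom hcomp.symm
    obtain ⟨a, ha⟩ := Groth.Agent.Ega3B.NormalBirational.exists_app_eq_of_isIntegral hX W.ι
      (genericPoint_eq_of_isOpenImmersion W.ι) inferInstance V hV c hcint
    refine ⟨a, hjinj ?_⟩
    refine (congr($hcomp a)).trans ?_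
    refine (congrArg (D.q.app (W.ι ⁻¹ᵁ V)) ha).trans ?_
    exact hc

end Norm

end Groth.Agent.Pi1.H385.KumNorm
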