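import Mathlib.RingTheory.AdjoinRoot
import Mathlib.RingTheory.RootsOfUnity.PrimitiveRoots
import Mathlib.RingTheory.RootsOfUnity.Lemmas
import Mathlib.RingTheory.Polynomial.Cyclotomic.Basic
import Mathlib.RingTheory.IntegralClosure.IsIntegral.Basic
import Mathlib.Data.ZMod.Basic
import Mathlib.Algebra.Category.Ring.Constructions
import Mathlib.Algebra.MvPolynomial.CommRing

/-!
# The Kummer algebra `R[z]/(z^N - f)`: action of the roots of unity, invariants, push-out square
-/

set_option autoImplicit false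
universe u v w

open Polynomial CategoryTheory CategoryTheory.Limits

namespace Groth.Agent.Pi1.H385.KumRing

variable {R : Type u} [CommRing R] (f : R) (N : ℕ)

/-- The Kummer algebra. -/
abbrev Kum : Type u := AdjoinRoot (X ^ N - C f : R[X])

/-- The universal root. -/
noncomputable def z : Kum f N := AdjoinRoot.root _

lemma z_pow : z f N ^ N = algebraMap R (Kum f N) f := by
  have h := AdjoinRoot.eval₂_root (X ^ N - C f : R[X])
  rw [eval₂_sub, eval₂_pow, eval₂_X, eval₂_C, sub_eq_zero] at h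
  exact h

variable {f N}

/-- Universal property. -/
noncomputable def lift {S : Type v} [CommRing S] [Algebra R S] (s : S) (hs : s ^ N = algebraMap R S f) :
    Kum f N →ₐ[R] S :=
  AdjoinRoot.liftAlgHom (X ^ N - C f : R[X]) (Algebra.ofId R S) s (by
    rw [eval₂_sub, eval₂_pow, eval₂_X, eval₂_C, sub_eq_zero]
    exact hs)

lemma lift_z {S : Type v} [CommRing S] [Algebra R S] (s : S) (hs : s ^ N = algebraMap R S f) :
    lift s hs (z f N) = s := AdjoinRoot.liftAlgHom_root ..

lemma algHom_ext {S : Type v} [CommRing S] [Algebra R S] {φ ψ : Kum f N →ₐ[R] S}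
    (h : φ (z f N) = ψ (z f N)) : φ = ψ := AdjoinRoot.algHom_ext h

lemma ringHom_ext {S : Type v} [CommRing S] {φ ψ : Kum f N →+* S}
    (h₁ : φ.comp (algebraMap R (Kum f N)) = ψ.comp (algebraMap R (Kum f N)))
    (h : φ (z f N) = ψ (z f N)) : φ = ψ := by
  let _ := (φ.comp (algebraMap R (Kum f N))).toAlgebra
  have := @algHom_ext R _ f N S _ _ ⟨φ, fun r => rfl⟩ ⟨ψ, fun r => congr($h₁ r).symm⟩ h
  exact congr(($this : Kum f N →+* S))

lemma monic (hN : N ≠ 0) : (X ^ N - C f : R[X]).Monic := monic_X_pow_sub_C f hN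

lemma finite (hN : N ≠ 0) : Module.Finite R (Kum f N) := (monic hN).finite_adjoinRoot

lemma free (hN : N ≠ 0) : Module.Free R (Kum f N) := (monic hN).free_adjoinRoot

section Basis

variable [Nontrivial R] (hN : N ≠ 0)

/-- The basis `1, z, …, z^(N-1)`. -/
noncomputable def basis : Module.Basis (Fin N) R (Kum f N) :=
  (AdjoinRoot.powerBasis' (monic (f := f) hN)).basis.reindex
    (finCongr (by rw [AdjoinRoot.powerBasis'_dim, natDegree_X_pow_sub_C]))

lemma basis_apply (i : Fin N) : basis (f := f) hN i = z f N ^ (i : ℕ) := by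
  rw [basis, Module.Basis.reindex_apply, PowerBasis.coe_basis]
  rfl

end Basis

lemma injective_algebraMap (hN : N ≠ 0) : Function.Injective (algebraMap R (Kum f N)) := by
  nontriviality R
  rw [injective_iff_map_eq_zero]
  intro a ha
  have h : (basis (f := f) hN).repr (a • basis (f := f) hN ⟨0, Nat.pos_of_ne_zero hN⟩)
      ⟨0, Nat.pos_of_ne_zero hN⟩ = a := by simp
  rw [basis_apply, pow_zero, Algebra.smul_def, mul_one, ha] at h
  simpa using h.symm

/-- The automorphism `z ↦ c z`. -/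
noncomputable def rot (c : R) (hc : c ^ N = 1) : Kum f N →ₐ[R] Kum f N :=
  lift (algebraMap R _ c * z f N) (by rw [mul_pow, ← map_pow, hc, map_one, one_mul, z_pow])

lemma rot_z (c : R) (hc : c ^ N = 1) : rot (f := f) c hc (z f N) = algebraMap R _ c * z f N :=
  lift_z _ _

lemma rot_comp (c d : R) (hc : c ^ N = 1) (hd : d ^ N = 1) (hcd : (c * d) ^ N = 1) :
    rot (f := f) (c * d) hcd = (rot c hc).comp (rot d hd) := by
  apply algHom_ext
  rw [AlgHom.comp_apply, rot_z, rot_z, map_mul (rot c hc), AlgHom.commutes, rot_z, map_mul]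
  ring

lemma rot_one (h : (1 : R) ^ N = 1) : rot (f := f) (1 : R) h = AlgHom.id R _ := by
  apply algHom_ext
  rw [rot_z, map_one, one_mul, AlgHom.id_apply]

/-- The invariants. -/
theorem mem_range_of_rot (hN : N ≠ 0) {ι : Type w} (u : ι → R) (hu : ∀ γ, u γ ^ N = 1)
    (hi : ∀ i, 0 < i → i < N → ∃ γ, IsUnit (u γ ^ i - 1)) (b : Kum f N)
    (hb : ∀ γ, rot (u γ) (hu γ) b = b) : b ∈ Set.range (algebraMap R (Kum f N)) := by
  rcases subsingleton_or_nontrivial R with hR | hR
  · have := Module.subsingleton R (Kum f N)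
    exact ⟨0, Subsingleton.elim _ _⟩
  let B := basis (f := f) hN
  have h1 : ∀ γ, ∀ b : Kum f N, rot (u γ) (hu γ) b = ∑ i : Fin N, (u γ ^ (i : ℕ) * B.repr b i) • B i := by
    intro γ b
    conv_lhs => rw [← B.sum_repr b, map_sum]
    refine Finset.sum_congr rfl fun i _ => ?_
    rw [map_smul, basis_apply, map_pow, rot_z, mul_pow, mul_smul, smul_comm]
    simp only [Algebra.smul_def, map_pow]
  have h2 : ∀ i : Fin N, (i : ℕ) ≠ 0 → B.repr b i = 0 := by
    intro i h0
    obtain ⟨γ, hγ⟩ := hi i (Nat.pos_of_ne_zero h0) i.2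
    have h3 : B.repr (rot (u γ) (hu γ) b) i = u γ ^ (i : ℕ) * B.repr b i := by
      rw [h1]
      simp only [map_sum, map_smul, Module.Basis.repr_self, Finsupp.coe_finsetSum, Finset.sum_apply,
        Finsupp.smul_apply, Finsupp.single_apply, smul_eq_mul, mul_ite, mul_one, mul_zero]
      simp
    rw [hb] at h3
    have h4 : (u γ ^ (i : ℕ) - 1) * B.repr b i = 0 := by rw [sub_mul, ← h3]; ring
    exact (hγ.mul_right_eq_zero).1 h4
  refine ⟨B.repr b ⟨0, Nat.pos_of_ne_zero hN⟩, ?_⟩
  conv_rhs => rw [← B.sum_repr b]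
  rw [Finset.sum_eq_single ⟨0, Nat.pos_of_ne_zero hN⟩]
  · rw [basis_apply, pow_zero, Algebra.smul_def, mul_one]
  · intro i _ hi0
    rw [h2 i (fun h => hi0 (Fin.ext h)), zero_smul]
  · intro h
    exact absurd (Finset.mem_univ _) h

section Act

variable {Γ : Type w} [Group Γ] (u : Γ →* Rˣ) (hu : ∀ γ, u γ ^ N = 1)

include hu in
lemma coe_pow (γ : Γ) : ((u γ : Rˣ) : R) ^ N = 1 := by
  rw [← Units.val_pow_eq_pow_val, hu, Units.val_one]

variable (f) in
/-- The action of a group of `N`-th roots of unity. -/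
noncomputable def act (γ : Γ) : Kum f N →ₐ[R] Kum f N := rot (u γ : R) (coe_pow u hu γ)

lemma act_z (γ : Γ) : act f u hu γ (z f N) = algebraMap R _ (u γ) * z f N := rot_z _ _

lemma act_one : act f u hu 1 = AlgHom.id R _ := by
  apply algHom_ext
  rw [act_z, map_one, Units.val_one, map_one, one_mul, AlgHom.id_apply]

lemma act_mul (γ δ : Γ) : act f u hu (γ * δ) = (act f u hu γ).comp (act f u hu δ) := by
  apply algHom_ext
  rw [AlgHom.comp_apply, act_z, act_z, map_mul (act f u hu γ), AlgHom.commutes, act_z, map_mul,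
    Units.val_mul, map_mul]
  ring

end Act

/-- A faithful character of the cyclic group of order `N`. -/
theorem exists_char {A : Type v} [CommRing A] [IsDomain A] {ζ : A} (hζ : IsPrimitiveRoot ζ N)
    (hN : N ≠ 0) (hNA : IsUnit ((N : ℕ) : A)) :
    ∃ u : Multiplicative (ZMod N) →* Aˣ, (∀ γ, u γ ^ N = 1) ∧
      (∀ γ, γ ≠ 1 → IsUnit ((u γ : A) - 1)) ∧
      (∀ i, 0 < i → i < N → ∃ γ, IsUnit ((u γ : A) ^ i - 1)) := by
  have : NeZero N := ⟨hN⟩
  have hunit : ∀ i, 0 < i → i < N → IsUnit (ζ ^ i - 1) := by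
    intro i h0 hi
    obtain ⟨M, rfl⟩ := Nat.exists_eq_succ_of_ne_zero hN
    have h1 := IsPrimitiveRoot.prod_one_sub_pow_eq_order hζ
    have h2 : (1 - ζ ^ i) ∣ ((M + 1 : ℕ) : A) := by
      have h3 : (1 - ζ ^ (i - 1 + 1)) ∣ ∏ k ∈ Finset.range M, (1 - ζ ^ (k + 1)) :=
        Finset.dvd_prod_of_mem (fun k => 1 - ζ ^ (k + 1)) (Finset.mem_range.2 (by omega))
      rw [h1, Nat.sub_add_cancel h0] at h3
      simpa using h3
    have h4 : IsUnit (1 - ζ ^ i) := isUnit_of_dvd_unit h2 hNA
    rw [← neg_sub]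
    exact h4.neg
  let ζu : Aˣ := (hζ.isUnit hN).unit
  have hζu : (ζu : A) = ζ := rfl
  have hζuN : ζu ^ N = 1 := by
    ext
    rw [Units.val_pow_eq_pow_val, hζu, hζ.pow_eq_one, Units.val_one]
  let a : ℤ →+ Additive Aˣ := AddMonoidHom.mk' (fun n : ℤ => Additive.ofMul (ζu ^ n)) fun m n => by
    rw [zpow_add, ofMul_mul]
  let b : ZMod N →+ Additive Aˣ := ZMod.lift N ⟨a, by
    change Additive.ofMul (ζu ^ (N : ℤ)) = 0
    rw [zpow_natCast, hζuN, ofMul_one]⟩
  have hb : ∀ n : ℕ, b (n : ZMod N) = Additive.ofMul (ζu ^ n) := by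
    intro n
    have h1 : b ((n : ℤ) : ZMod N) = a n := ZMod.lift_coe _ _ _
    have h2 : a (n : ℤ) = Additive.ofMul (ζu ^ n) := by
      change Additive.ofMul (ζu ^ (n : ℤ)) = _
      rw [zpow_natCast]
    rw [← h2, ← h1, Int.cast_natCast]
  let u : Multiplicative (ZMod N) →* Aˣ :=
    { toFun := fun γ => (b γ.toAdd).toMul
      map_one' := by simp
      map_mul' := fun γ δ => by simp }
  have hu : ∀ n : ℕ, u (Multiplicative.ofAdd (n : ZMod N)) = ζu ^ n := fun n => by
    change (b (n : ZMod N)).toMul = _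
    rw [hb]
    rfl
  have hsurj : ∀ γ : Multiplicative (ZMod N), ∃ n : ℕ, n < N ∧ γ = Multiplicative.ofAdd (n : ZMod N) := by
    intro γ
    refine ⟨γ.toAdd.val, ZMod.val_lt _, ?_⟩
    rw [ZMod.natCast_zmod_val]
    rfl
  refine ⟨u, fun γ => ?_, fun γ hγ => ?_, fun i h0 hi => ?_⟩
  · obtain ⟨n, -, rfl⟩ := hsurj γ
    rw [hu, ← pow_mul, mul_comm, pow_mul, hζuN, one_pow]
  · obtain ⟨n, hn, rfl⟩ := hsurj γ
    rw [hu, Units.val_pow_eq_pow_val, hζu]
    refine hunit n (Nat.pos_of_ne_zero fun h => hγ ?_) hn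
    rw [h]
    simp
  · refine ⟨Multiplicative.ofAdd ((1 : ℕ) : ZMod N), ?_⟩
    rw [hu, pow_one, hζu]
    exact hunit i h0 hi

section Push

variable {A : Type u} [CommRing A] {σ : Type u} [Unique σ] (ψ : MvPolynomial σ A →+* R)

/-- `t ↦ t ^ N`. -/
noncomputable def pw (A : Type u) [CommRing A] (σ : Type u) [Unique σ] (N : ℕ) :
    MvPolynomial σ A →+* MvPolynomial σ A :=
  MvPolynomial.eval₂Hom MvPolynomial.C fun i => MvPolynomial.X i ^ N

/-- The coordinate ring map of `z`. -/
noncomputable def θ (N : ℕ) : MvPolynomial σ A →+* Kum (ψ (MvPolynomial.X default)) N :=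
  MvPolynomial.eval₂Hom ((algebraMap R _).comp (ψ.comp MvPolynomial.C)) fun _ => z _ N

lemma θ_C (a : A) : θ ψ N (MvPolynomial.C a) = algebraMap R _ (ψ (MvPolynomial.C a)) :=
  MvPolynomial.eval₂Hom_C _ _ _

lemma θ_X (i : σ) : θ ψ N (MvPolynomial.X i) = z _ N := MvPolynomial.eval₂Hom_X' _ _ _

lemma pw_C (a : A) : pw A σ N (MvPolynomial.C a) = MvPolynomial.C a :=
  MvPolynomial.eval₂Hom_C _ _ _

lemma pw_X (i : σ) : pw A σ N (MvPolynomial.X i) = MvPolynomial.X i ^ N :=
  MvPolynomial.eval₂Hom_X' _ _ _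

lemma θ_comp_pw : (θ ψ N).comp (pw A σ N) = (algebraMap R _).comp ψ := by
  apply MvPolynomial.ringHom_ext
  · intro a
    rw [RingHom.comp_apply, pw, MvPolynomial.eval₂Hom_C, θ_C, RingHom.comp_apply]
  · intro i
    rw [RingHom.comp_apply, pw, MvPolynomial.eval₂Hom_X', map_pow, θ_X, z_pow, RingHom.comp_apply,
      Unique.eq_default i]

section Desc

variable {S : Type u} [CommRing S] (a : MvPolynomial σ A →+* S) (b : R →+* S)
  (hab : a.comp (pw A σ N) = b.comp ψ)

/-- The map out of the push-out. -/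
noncomputable def desc : Kum (ψ (MvPolynomial.X default)) N →+* S :=
  AdjoinRoot.lift b (a (MvPolynomial.X default)) (by
    rw [eval₂_sub, eval₂_pow, eval₂_X, eval₂_C, sub_eq_zero, ← map_pow, ← pw_X]
    exact congr($hab (MvPolynomial.X default)))

lemma desc_algebraMap (r : R) : desc ψ a b hab (algebraMap R _ r) = b r := AdjoinRoot.lift_of _

lemma desc_z : desc ψ a b hab (z _ N) = a (MvPolynomial.X default) := AdjoinRoot.lift_root _

lemma desc_comp_θ : (desc ψ a b hab).comp (θ ψ N) = a := by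
  apply MvPolynomial.ringHom_ext
  · intro c
    have h := congr($hab (MvPolynomial.C c))
    rw [RingHom.comp_apply, pw_C, RingHom.comp_apply] at h
    rw [RingHom.comp_apply, θ_C, desc_algebraMap, h]
  · intro i
    rw [RingHom.comp_apply, θ_X, desc_z, Unique.eq_default i]

end Desc

/-- The Kummer algebra is a push-out. -/
theorem isPushout : IsPushout (CommRingCat.ofHom (pw A σ N)) (CommRingCat.ofHom ψ)
    (CommRingCat.ofHom (θ ψ N)) (CommRingCat.ofHom
      (algebraMap R (Kum (ψ (MvPolynomial.X default)) N))) where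
  w := by
    rw [← CommRingCat.ofHom_comp, ← CommRingCat.ofHom_comp, θ_comp_pw]
  isColimit' := ⟨PushoutCocone.IsColimit.mk _
    (fun s => CommRingCat.ofHom (desc ψ s.inl.hom s.inr.hom
      (congrArg CommRingCat.Hom.hom s.condition)))
    (fun s => CommRingCat.hom_ext (desc_comp_θ ψ s.inl.hom s.inr.hom
      (congrArg CommRingCat.Hom.hom s.condition)))
    (fun s => CommRingCat.hom_ext (RingHom.ext fun r => desc_algebraMap ψ s.inl.hom s.inr.hom
      (congrArg CommRingCat.Hom.hom s.condition) r))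
    (fun s m h₁ h₂ => by
      ext1
      apply ringHom_ext
      · refine RingHom.ext fun r => ?_
        refine Eq.trans ?_ (desc_algebraMap ψ s.inl.hom s.inr.hom
          (congrArg CommRingCat.Hom.hom s.condition) r).symm
        exact congr($h₂ r)
      · refine Eq.trans ?_ (desc_z ψ s.inl.hom s.inr.hom
          (congrArg CommRingCat.Hom.hom s.condition)).symm
        rw [← h₁]
        exact congrArg m.hom (θ_X ψ default).symm)⟩

end Push

end Groth.Agent.Pi1.H385.KumRing
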