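import Groth.Agent.Pi1.H385.KumRing
import Groth.Agent.Pi1.H404.Chart

/-!
# The Kummer cover of an affine scheme étale over the affine line
-/

set_option autoImplicit false
universe u

open CategoryTheory CategoryTheory.Limits AlgebraicGeometry

namespace Groth.Agent.Pi1.H385.KumSch

open KumRing

/-- The Kummer cover `q : E ⟶ W` of `z ^ N = f` with the action of a group of `N`-th roots of unity
of the base, for `W` affine over an affine base `T` with étale coordinate `f`. -/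
structure KumCov {T W : Scheme.{u}} (s : W ⟶ T) (f : Γ(W, ⊤)) (N : ℕ) {Γ : Type} [Group Γ]
    (u : Γ →* Γ(T, ⊤)ˣ) where
  E : Scheme.{u}
  q : E ⟶ W
  z : Γ(E, ⊤)
  r : Γ → (E ⟶ E)
  finite : IsFinite q
  surj : Surjective q
  z_pow : z ^ N = q.appTop f
  etale : Etale (AffineSpace.homOfVector (q ≫ s) (fun _ : PUnit.{u+1} => z))
  r_q : ∀ γ, r γ ≫ q = q
  r_one : r 1 = 𝟙 _
  r_mul : ∀ γ δ, r (γ * δ) = r γ ≫ r δ
  r_z : ∀ γ, (r γ).appTop z = (q ≫ s).appTop (u γ : Γ(T, ⊤)) * z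
  inj : Function.Injective q.appTop
  inv : ∀ b : Γ(E, ⊤), (∀ γ, (r γ).appTop b = b) → b ∈ Set.range q.appTop

variable {A R : CommRingCat.{u}} (s : Spec R ⟶ Spec A) (f : Γ(Spec R, ⊤))

lemma SpecMap_appTop_apply {R S : CommRingCat.{u}} (φ : R ⟶ S) (x : Γ(Spec R, ⊤)) :
    (Spec.map φ).appTop x = (Scheme.ΓSpecIso S).inv (φ ((Scheme.ΓSpecIso R).hom x)) := by
  have h : (Spec.map φ).appTop = (Scheme.ΓSpecIso R).hom ≫ φ ≫ (Scheme.ΓSpecIso S).inv := by
    rw [← Scheme.ΓSpecIso_naturality_assoc, Iso.hom_inv_id, Category.comp_id]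
  exact congr($h x)

lemma hom_inv_apply {R : CommRingCat.{u}} (x : R) :
    (Scheme.ΓSpecIso R).hom ((Scheme.ΓSpecIso R).inv x) = x :=
  congr($((Scheme.ΓSpecIso R).inv_hom_id) x)

lemma inv_hom_apply {R : CommRingCat.{u}} (x : Γ(Spec R, ⊤)) :
    (Scheme.ΓSpecIso R).inv ((Scheme.ΓSpecIso R).hom x) = x :=
  congr($((Scheme.ΓSpecIso R).hom_inv_id) x)

lemma exists_spec_aux {N : ℕ} (hN : N ≠ 0) (ψ : CommRingCat.of (MvPolynomial PUnit.{u+1} A) ⟶ R)
    (h₁ : AffineSpace.homOfVector s (fun _ : PUnit.{u+1} => f) ≫ (AffineSpace.SpecIso _ A).hom = Spec.map ψ)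
    (h₂ : s = Spec.map (CommRingCat.ofHom MvPolynomial.C ≫ ψ))
    (h₃ : ψ (MvPolynomial.X PUnit.unit) = (Scheme.ΓSpecIso R).hom f)
    (he : Etale (AffineSpace.homOfVector s (fun _ : PUnit.{u+1} => f))) {Γ : Type} [Group Γ]
    (u : Γ →* Γ(Spec A, ⊤)ˣ) (hu : ∀ γ, u γ ^ N = 1)
    (hi : ∀ i, 0 < i → i < N → ∃ γ, IsUnit ((u γ : Γ(Spec A, ⊤)) ^ i - 1)) :
    Nonempty (KumCov s f N u) := by
  let g : Γ(Spec A, ⊤) →+* R := (Scheme.ΓSpecIso R).hom.hom.comp s.appTop.hom
  let uR : Γ →* (R)ˣ := (Units.map g.toMonoidHom).comp u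
  have huR : ∀ γ, uR γ ^ N = 1 := fun γ => by
    have := congrArg (Units.map g.toMonoidHom) (hu γ)
    rwa [map_pow, map_one] at this
  have hiR : ∀ i, 0 < i → i < N → ∃ γ, IsUnit ((uR γ : R) ^ i - 1) := fun i h0 hi' => by
    obtain ⟨γ, hγ⟩ := hi i h0 hi'
    refine ⟨γ, ?_⟩
    have := hγ.map g
    rwa [map_sub, map_pow, map_one] at this
  let K : CommRingCat.{u} := CommRingCat.of (Kum (ψ.hom (MvPolynomial.X (default : PUnit.{u+1}))) N)
  let α : R ⟶ K := CommRingCat.ofHom (algebraMap R _)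
  let zK : K := KumRing.z _ N
  have hzK : zK ^ N = α ((Scheme.ΓSpecIso R).hom f) := by
    rw [← h₃]
    exact KumRing.z_pow _ N
  let z : Γ(Spec K, ⊤) := (Scheme.ΓSpecIso K).inv zK
  have hfin : α.hom.Finite := RingHom.finite_algebraMap.2 (KumRing.finite hN)
  have hinj : Function.Injective α := KumRing.injective_algebraMap hN
  have hz : (Scheme.ΓSpecIso K).hom z = zK := hom_inv_apply zK
  let ρ : Γ → (K ⟶ K) := fun γ => CommRingCat.ofHom (KumRing.act _ uR huR γ).toRingHom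
  have hρα : ∀ γ, α ≫ ρ γ = α := fun γ =>
    CommRingCat.hom_ext (RingHom.ext fun x => AlgHom.commutes (KumRing.act _ uR huR γ) x)
  have hρz : ∀ γ, ρ γ zK = α (uR γ) * zK := fun γ => KumRing.act_z uR huR γ
  have hρ1 : ρ 1 = 𝟙 _ := CommRingCat.hom_ext (RingHom.ext fun x =>
    congr($(KumRing.act_one uR huR) x))
  have hρm : ∀ γ δ, ρ (γ * δ) = ρ δ ≫ ρ γ := fun γ δ => CommRingCat.hom_ext (RingHom.ext fun x =>
    congr($(KumRing.act_mul uR huR γ δ) x))
  refine ⟨{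
    E := Spec K
    q := Spec.map α
    z := z
    r := fun γ => Spec.map (ρ γ)
    finite := (IsFinite.SpecMap_iff α).2 hfin
    surj := ?_
    z_pow := ?_
    etale := ?_
    r_q := fun γ => by rw [← Spec.map_comp, hρα]
    r_one := by rw [hρ1, Spec.map_id]
    r_mul := fun γ δ => by rw [hρm, Spec.map_comp]
    r_z := fun γ => ?_
    inj := ?_
    inv := ?_ }⟩
  · constructor
    exact hfin.to_isIntegral.comap_surjective hinj
  · rw [SpecMap_appTop_apply, ← hzK, map_pow]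
  · obtain ⟨θ, hθ1, hθ2, hθ3⟩ := Groth.Agent.Pi1.H404.Chart.exists_ringHom (n := PUnit.{u+1})
      (A := A) (B := K) (Spec.map α ≫ s) (fun _ => z)
    have hθ : θ = CommRingCat.ofHom (KumRing.θ ψ.hom N) := by
      ext1
      apply MvPolynomial.ringHom_ext
      · intro a
        refine Eq.trans ?_ (KumRing.θ_C ψ.hom a).symm
        rw [h₂, ← Spec.map_comp] at hθ2
        exact congr($(Spec.map_injective hθ2) a).symm
      · intro i
        refine Eq.trans ?_ (KumRing.θ_X ψ.hom i).symm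
        exact (hθ3 i).trans hz
    have hψe : Etale (Spec.map ψ) := by
      rw [← h₁]
      infer_instance
    have hp := isPullback_SpecMap_of_isPushout _ _ _ _ (KumRing.isPushout (N := N) ψ.hom)
    have h4 : Etale (Spec.map (CommRingCat.ofHom (KumRing.θ ψ.hom N))) :=
      MorphismProperty.of_isPullback hp.flip hψe
    rw [← MorphismProperty.cancel_right_of_respectsIso (P := @Etale) _
      (AffineSpace.SpecIso PUnit.{u+1} A).hom, hθ1, hθ]
    exact h4
  · rw [SpecMap_appTop_apply, hz, hρz, map_mul, Scheme.Hom.comp_appTop, CommRingCat.comp_apply,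
      SpecMap_appTop_apply]
    rfl
  · intro x y hxy
    rw [SpecMap_appTop_apply, SpecMap_appTop_apply] at hxy
    have h5 := hinj ((ConcreteCategory.bijective_of_isIso (Scheme.ΓSpecIso K).inv).1 hxy)
    exact (ConcreteCategory.bijective_of_isIso (Scheme.ΓSpecIso R).hom).1 h5
  · intro b hb
    have h6 : ∀ γ, KumRing.act _ uR huR γ ((Scheme.ΓSpecIso K).hom b) = (Scheme.ΓSpecIso K).hom b := by
      intro γ
      have h7 := hb γ
      rw [SpecMap_appTop_apply] at h7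
      have h8 := congrArg (Scheme.ΓSpecIso K).hom h7
      rw [hom_inv_apply] at h8
      exact h8
    obtain ⟨c, hc⟩ := KumRing.mem_range_of_rot hN (fun γ => (uR γ : R))
      (fun γ => KumRing.coe_pow uR huR γ) hiR _ h6
    refine ⟨(Scheme.ΓSpecIso R).inv c, ?_⟩
    rw [SpecMap_appTop_apply, hom_inv_apply]
    refine (congrArg (Scheme.ΓSpecIso K).inv hc).trans ?_
    rw [inv_hom_apply]

theorem exists_spec {N : ℕ} (hN : N ≠ 0)
    (he : Etale (AffineSpace.homOfVector s (fun _ : PUnit.{u+1} => f))) {Γ : Type} [Group Γ]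
    (u : Γ →* Γ(Spec A, ⊤)ˣ) (hu : ∀ γ, u γ ^ N = 1)
    (hi : ∀ i, 0 < i → i < N → ∃ γ, IsUnit ((u γ : Γ(Spec A, ⊤)) ^ i - 1)) :
    Nonempty (KumCov s f N u) := by
  obtain ⟨ψ, h₁, h₂, h₃⟩ := Groth.Agent.Pi1.H404.Chart.exists_ringHom (n := PUnit.{u+1})
    (A := A) (B := R) s (fun _ => f)
  exact exists_spec_aux s f hN ψ h₁ h₂ (h₃ _) he u hu hi

/-- **The Kummer cover of an affine scheme.** -/
theorem exists_kumCov {W : Scheme.{u}} [IsAffine W] (s : W ⟶ Spec A) (f : Γ(W, ⊤)) {N : ℕ}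
    (hN : N ≠ 0) (he : Etale (AffineSpace.homOfVector s (fun _ : PUnit.{u+1} => f))) {Γ : Type}
    [Group Γ] (u : Γ →* Γ(Spec A, ⊤)ˣ) (hu : ∀ γ, u γ ^ N = 1)
    (hi : ∀ i, 0 < i → i < N → ∃ γ, IsUnit ((u γ : Γ(Spec A, ⊤)) ^ i - 1)) :
    Nonempty (KumCov s f N u) := by
  let ε : Spec Γ(W, ⊤) ⟶ W := W.isoSpec.inv
  have hεi : IsIso ε := inferInstanceAs (IsIso W.isoSpec.inv)
  have hε : Function.Bijective ε.appTop := by
    have hi : W.isoSpec.hom.appTop ≫ ε.appTop = 𝟙 _ := by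
      rw [← Scheme.Hom.comp_appTop, Iso.inv_hom_id, Scheme.Hom.id_appTop]
    have hi' : ε.appTop ≫ W.isoSpec.hom.appTop = 𝟙 _ := by
      rw [← Scheme.Hom.comp_appTop, Iso.hom_inv_id, Scheme.Hom.id_appTop]
    have : IsIso ε.appTop := ⟨_, hi', hi⟩
    exact ConcreteCategory.bijective_of_isIso _
  have he' : Etale (AffineSpace.homOfVector (ε ≫ s) (fun _ : PUnit.{u+1} => ε.appTop f)) := by
    have h := AffineSpace.comp_homOfVector (n := PUnit.{u+1}) (fun _ => f) ε s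
    rw [show (fun _ : PUnit.{u+1} => ε.appTop f) = (ConcreteCategory.hom ε.appTop) ∘ fun _ => f from rfl,
      ← h]
    infer_instance
  obtain ⟨D⟩ := exists_spec (ε ≫ s) (ε.appTop f) hN he' u hu hi
  have hf := D.finite
  have hs := D.surj
  refine ⟨{
    E := D.E
    q := D.q ≫ ε
    z := D.z
    r := D.r
    finite := inferInstance
    surj := inferInstance
    z_pow := by rw [D.z_pow, Scheme.Hom.comp_appTop, CommRingCat.comp_apply]
    etale := by rw [Category.assoc]; exact D.etale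
    r_q := fun γ => by rw [← Category.assoc, D.r_q]
    r_one := D.r_one
    r_mul := D.r_mul
    r_z := fun γ => by rw [D.r_z, Category.assoc]
    inj := ?_
    inv := fun b hb => ?_ }⟩
  · rw [Scheme.Hom.comp_appTop]
    intro x y hxy
    exact hε.1 (D.inj hxy)
  · obtain ⟨c, hc⟩ := D.inv b hb
    obtain ⟨d, rfl⟩ := hε.2 c
    exact ⟨d, by rw [Scheme.Hom.comp_appTop]; exact hc⟩

end Groth.Agent.Pi1.H385.KumSch
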